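import Mathlib

/-!
# Additive maps on the field with 81 elements which are semi-invariant under an element of order 40
-/

set_option autoImplicit false

namespace Cfsg.Agent.H288.E8L

variable {F : Type} [Field F] [Fintype F] {K : Type} [Field K] [CharP K 3]

/-- an additive subgroup containing the powers of `θ` is everything -/
theorem addSubgroup_top (hF : Fintype.card F = 81) {θ : F} (hθ : IsPrimitiveRoot θ 40) (S : AddSubgroup F)
    (hS : ∀ n : ℕ, θ ^ n ∈ S) (x : F) : x ∈ S := by
  classical
  have h1 : Nat.card S ∣ 81 := by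
    have := S.card_addSubgroup_dvd_card
    rwa [Nat.card_eq_fintype_card (α := F), hF] at this
  have hinj : Function.Injective (fun o : Option (Fin 40) => match o with
      | none => (⟨0, S.zero_mem⟩ : S)
      | some i => ⟨θ ^ (i : ℕ), hS i⟩) := by
    intro a b hab
    have hθ0 : θ ≠ 0 := hθ.ne_zero (by norm_num)
    rcases a with _ | a <;> rcases b with _ | b
    · rfl
    · exact absurd (congrArg Subtype.val hab).symm (pow_ne_zero _ hθ0)
    · exact absurd (congrArg Subtype.val hab) (pow_ne_zero _ hθ0)
    · have := hθ.pow_inj a.2 b.2 (congrArg Subtype.val hab)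
      exact congrArg some (Fin.ext this)
  have h2 := Nat.card_le_card_of_injective _ hinj
  rw [Nat.card_eq_fintype_card (α := Option (Fin 40)), Fintype.card_option, Fintype.card_fin] at h2
  have h3 : Nat.card S = 81 := by
    have h4 : Nat.card S ∈ Nat.divisors 81 := Nat.mem_divisors.2 ⟨h1, by norm_num⟩
    have h5 : Nat.divisors 81 = {1, 3, 9, 27, 81} := by decide +kernel
    rw [h5] at h4
    simp only [Finset.mem_insert, Finset.mem_singleton] at h4
    omega
  have h4 : S = ⊤ := by
    apply AddSubgroup.eq_top_of_card_eq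
    rw [h3, Nat.card_eq_fintype_card (α := F), hF]
  rw [h4]
  exact AddSubgroup.mem_top x

/-- an embedding of the field with 81 elements is a Frobenius twist of another one -/
theorem hom_eq (hF : Fintype.card F = 81) (ι σ : F →+* K) : ∃ i < 4, ∀ x, σ x = ι x ^ 3 ^ i := by
  classical
  have : Fact (Nat.Prime 3) := ⟨Nat.prime_three⟩
  have hF3 : CharP F 3 := (RingHom.charP_iff ι ι.injective 3).2 inferInstance
  have hr : ∀ t : K, t ^ 81 = t → t ∈ Set.range ι := by
    intro t ht
    have hp0 : (Polynomial.X ^ 81 - Polynomial.X : Polynomial K) ≠ 0 :=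
      FiniteField.X_pow_card_sub_X_ne_zero K (by norm_num)
    have h1 : Finset.univ.image ι ⊆ (Polynomial.X ^ 81 - Polynomial.X : Polynomial K).roots.toFinset := by
      intro y hy
      obtain ⟨x, -, rfl⟩ := Finset.mem_image.1 hy
      have hx : x ^ 81 = x := by
        have := FiniteField.pow_card x
        rwa [hF] at this
      rw [Multiset.mem_toFinset, Polynomial.mem_roots hp0, Polynomial.IsRoot, Polynomial.eval_sub,
        Polynomial.eval_pow, Polynomial.eval_X, ← map_pow, hx, sub_self]
    have h2 : (Polynomial.X ^ 81 - Polynomial.X : Polynomial K).roots.toFinset.card ≤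
        (Finset.univ.image ι).card := by
      rw [Finset.card_image_of_injective _ ι.injective, Finset.card_univ, hF]
      refine (Multiset.toFinset_card_le _).trans ((Polynomial.card_roots' _).trans ?_)
      rw [FiniteField.X_pow_card_sub_X_natDegree_eq K (by norm_num : 1 < 81)]
    have h3 := Finset.eq_of_subset_of_card_le h1 h2
    have h4 : t ∈ (Polynomial.X ^ 81 - Polynomial.X : Polynomial K).roots.toFinset := by
      rw [Multiset.mem_toFinset, Polynomial.mem_roots hp0, Polynomial.IsRoot, Polynomial.eval_sub,
        Polynomial.eval_pow, Polynomial.eval_X, ht, sub_self]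
    rw [← h3] at h4
    obtain ⟨x, -, hx⟩ := Finset.mem_image.1 h4
    exact ⟨x, hx⟩
  have hex : ∀ x : F, ∃ y, ι y = σ x := by
    intro x
    refine hr (σ x) ?_
    rw [← map_pow]
    have := FiniteField.pow_card x
    rw [hF] at this
    rw [this]
  choose τ hτ using hex
  let τr : F →+* F :=
    { toFun := τ
      map_one' := ι.injective (by rw [hτ, map_one, map_one])
      map_zero' := ι.injective (by rw [hτ, map_zero, map_zero])
      map_mul' := fun x y => ι.injective (by rw [hτ, map_mul, map_mul, hτ, hτ])
      map_add' := fun x y => ι.injective (by rw [hτ, map_add, map_add, hτ, hτ]) }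
  let _ : Algebra (ZMod 3) F := ZMod.algebra F 3
  have hcomm : τr.comp (algebraMap (ZMod 3) F) = algebraMap (ZMod 3) F := Subsingleton.elim _ _
  let τ' : F →ₐ[ZMod 3] F := { τr with commutes' := fun r => RingHom.congr_fun hcomm r }
  obtain ⟨j, hj⟩ := (FiniteField.bijective_frobeniusAlgHom_pow (ZMod 3) F).2 τ'
  have h1 : ∀ (n : ℕ) (y : F), ((FiniteField.frobeniusAlgHom (ZMod 3) F) ^ n) y = y ^ 3 ^ n := by
    intro n y
    induction n generalizing y with
    | zero => simp
    | succ n ih =>
      have hy : (FiniteField.frobeniusAlgHom (ZMod 3) F) y = y ^ 3 := by simp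
      rw [pow_succ, AlgHom.mul_apply, ih, hy, ← pow_mul, pow_succ, mul_comm]
  have hfr : Module.finrank (ZMod 3) F = 4 := by
    have h2 := Module.card_eq_pow_finrank (K := ZMod 3) (V := F)
    rw [hF, ZMod.card] at h2
    have h3 : (3 : ℕ) ^ 4 = 3 ^ Module.finrank (ZMod 3) F := by rw [← h2]; norm_num
    exact (Nat.pow_right_injective (le_refl 2 |>.trans (by norm_num : 2 ≤ 3)) h3).symm
  refine ⟨j, by have := j.2; omega, fun x => ?_⟩
  rw [← hτ x]
  have h2 : τ x = τ' x := rfl
  rw [h2, ← hj]
  show ι ((FiniteField.frobeniusAlgHom (ZMod 3) F ^ (j : ℕ)) x) = _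
  rw [h1, map_pow]

/-- **semi-invariant additive maps** -/
theorem semi (hF : Fintype.card F = 81) (ι : F →+* K) {θ : F} (hθ : IsPrimitiveRoot θ 40) (G : F → K)
    (hadd : ∀ x y, G (x + y) = G x + G y) {c : K} (hG : ∀ x, G (θ * x) = c * G x) (hne : ∃ x, G x ≠ 0) :
    G 1 ≠ 0 ∧ ∃ i < 4, (∀ x, G x = G 1 * ι x ^ 3 ^ i) ∧ c = ι θ ^ 3 ^ i := by
  have hz : G 0 = 0 := by
    have := hadd 0 0
    rw [add_zero] at this
    exact left_eq_add.1 this
  have hneg : ∀ x, G (-x) = -G x := by
    intro x
    have := hadd x (-x)
    rw [add_neg_cancel, hz] at this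
    exact eq_neg_of_add_eq_zero_right this.symm
  have hpow : ∀ (n : ℕ) (x : F), G (θ ^ n * x) = c ^ n * G x := by
    intro n
    induction n with
    | zero => intro x; rw [pow_zero, pow_zero, one_mul, one_mul]
    | succ n ih => intro x; rw [pow_succ, mul_assoc, ih, hG, pow_succ, mul_assoc]
  have h1 : G 1 ≠ 0 := by
    intro h1
    obtain ⟨x, hx⟩ := hne
    apply hx
    let S : AddSubgroup F :=
      { carrier := {x | G x = 0}
        zero_mem' := hz
        add_mem' := fun {a b} ha hb => by
          show G (a + b) = 0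
          rw [hadd, show G a = 0 from ha, show G b = 0 from hb, add_zero]
        neg_mem' := fun {a} ha => by
          show G (-a) = 0
          rw [hneg, show G a = 0 from ha, neg_zero] }
    refine addSubgroup_top hF hθ S (fun n => ?_) x
    show G (θ ^ n) = 0
    rw [← mul_one (θ ^ n), hpow, h1, mul_zero]
  refine ⟨h1, ?_⟩
  have hmul : ∀ x y, G (x * y) * G 1 = G x * G y := by
    intro x
    let S : AddSubgroup F :=
      { carrier := {x | ∀ y, G (x * y) * G 1 = G x * G y}
        zero_mem' := fun y => by rw [zero_mul, hz, zero_mul, zero_mul]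
        add_mem' := fun {a b} ha hb y => by
          rw [add_mul, hadd, add_mul, ha y, hb y, hadd, add_mul]
        neg_mem' := fun {a} ha y => by
          rw [neg_mul, hneg, neg_mul, ha y, hneg, neg_mul] }
    refine addSubgroup_top hF hθ S (fun n y => ?_) x
    have h2 := hpow n 1
    rw [mul_one] at h2
    rw [hpow, h2]
    ring
  let σ : F →+* K :=
    { toFun := fun x => G x / G 1
      map_one' := div_self h1
      map_zero' := by show G 0 / G 1 = 0; rw [hz, zero_div]
      map_mul' := fun x y => by
        show G (x * y) / G 1 = G x / G 1 * (G y / G 1)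
        rw [div_mul_div_comm, div_eq_div_iff h1 (mul_ne_zero h1 h1)]
        have := hmul x y
        linear_combination (G 1) * this
      map_add' := fun x y => by
        show G (x + y) / G 1 = G x / G 1 + G y / G 1
        rw [hadd, add_div] }
  obtain ⟨i, hi, h2⟩ := hom_eq hF ι σ
  refine ⟨i, hi, fun x => ?_, ?_⟩
  · rw [← h2 x]
    show G x = G 1 * (G x / G 1)
    rw [mul_div_cancel₀ _ h1]
  · rw [← h2 θ]
    show c = G θ / G 1
    rw [eq_div_iff h1]
    have := hG 1
    rw [mul_one] at this
    exact this.symm

end Cfsg.Agent.H288.E8L
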