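import Mathlib
import Cfsg.Agent.H288.E8L.TabDat

/-!
# The conclusion from the tables
-/

set_option autoImplicit false
set_option linter.unusedSectionVars false
set_option maxRecDepth 100000

namespace Cfsg.Agent.H288.E8L

open CoxeterSystem Cfsg Cfsg.Lie Cfsg.Lie.ChevalleyDatum
open Cfsg.Agent.ChevalleyStructure Cfsg.Agent.ChevalleyStructure.Elts Cfsg.Agent.ChevalleyStructure.CoxeterGeom
  Cfsg.Agent.ChevalleyStructure.CoxeterGeomTypes Cfsg.Agent.ChevalleyStructure.RootVec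
  Cfsg.Agent.ChevalleyStructure.RootVecTab
open Cfsg.Agent.Tits.Roots Cfsg.Agent.Tits.Core Cfsg.Agent.Nodes Cfsg.Agent.Nodes.Reps Cfsg.Agent.Nodes.BNOf
  Cfsg.Agent.Nodes.RGDChev
open Cfsg.Agent.GpExc.Field Cfsg.Agent.BpExc.TowChev Cfsg.Agent.H129.TorusChar
open Cfsg.Agent.KFacts.RgdChevCoord
open Cfsg.Agent.H942.E8Tab Cfsg.Agent.H942.E8Alc Cfsg.Agent.H942.CB Cfsg.Agent.H944.Tab Cfsg.Agent.H944.Kac
open Matrix

/-- the parts of the geometric checks -/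
structure Geo (D : Dat) : Prop where
  len : D.Y.length = 8
  okw : ∀ i ∈ D.w, i < 8
  okD : okD D = true
  kap : ∀ k < 28, (dt (YZ D.Y) (D.RV.getD k []) - 3 ^ (k % 4)) % 40 = 0
  cls : ∀ s < 240, dt (YZ D.Y) (vl s) % 40 ∈ [(1 : ℤ), 3, 9, 27] → s ∈ D.ix
  phi : ∀ k < 28, k % 4 ≠ 3 → ∀ i : Fin 8, dt (actW D.w (un i)) (D.RV.getD k []) = (D.RV.getD (k + 1) []).getD i 0
  tw : ∀ i : Fin 8, ((40 : ℕ) : ℤ) ∣ (actW D.w (YZ D.Y)).getD i 0 - 3 * (YZ D.Y).getD i 0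
  alc : dotN th8 D.Y < 40
  one : ∀ i < 8, 1 ≤ D.Y.getD i 0

theorem geo_of {D : Dat} (h : chkG D = true) : Geo D := by
  unfold chkG at h
  simp only [Bool.and_eq_true, decide_eq_true_eq, List.all_eq_true, Bool.or_eq_true, Bool.not_eq_true',
    List.mem_range] at h
  obtain ⟨⟨⟨⟨⟨⟨⟨⟨h1, h2⟩, h3⟩, h4⟩, h5⟩, h6⟩, h7⟩, h8⟩, h9⟩ := h
  refine ⟨h1, okw_spec h2, h3, h4, fun s hs hm => ?_, fun k hk h3' i => (h6 k hk).resolve_left h3' i.val i.2,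
    fun i => Int.dvd_of_emod_eq_zero (h7 i.val i.2), h8, h9⟩
  rcases h5 s hs with h | h
  · rw [← Bool.not_eq_true, List.contains_iff_mem] at h
    exact absurd hm h
  · rwa [List.contains_iff_mem] at h

/-- the conclusion -/
def Concl (W : Subgroup GK) (D : Dat) : Prop :=
  ∃ e : List ℤ, e.length = 8 ∧ (∃ i < 8, e.getD i 0 % 2 ≠ 0) ∧ (∀ x : Q8, (2 : ℤ) ∣ fz e (act8 (word D.w) x) - fz e x) ∧
    ∀ a ∈ Ind W, (2 : ℤ) ∣ fz e a

section C

variable {W : Subgroup GK} {f : Q8 →+ ℤ} (hW : ∀ g ∈ W, Uni f (mx g)) (hc : ∀ g ∈ W, ∀ g' ∈ W, g * g' = g' * g)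
  {D : Dat} (hG : Geo D) {m : ℕ} (hS : ∀ a, a ∈ Ind W ↔ ∃ r ∈ sup D m, toV r = a)
  {F : Type} [Field F] (ι : F →+* K8) (u : F → GK) (hu : ∀ x, u x ∈ W)
  (hι : ∀ i j, i < 4 → j < 4 → (∀ y : F, ι y ^ 3 ^ i = ι y ^ 3 ^ j) → i = j)
  (hcf : ∀ k < 28, m.testBit (k / 4) = true →
    ∃ c : K8, c ≠ 0 ∧ ∀ x, cf (fi (D.ix.getD k 0)) (mx (u x)) = c * ι x ^ 3 ^ (k % 4))
  (hb : ∀ s : Fin chevE8.nroots, (∀ a ∈ Ind W, 0 ≤ H943.LatFix.ip (cartanOf chevE8 8) (vec chevE8 8 s) a) →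
      (2 : ℤ) • vec chevE8 8 s ∈ CL W)

include hG hS in
theorem sound_eps {e : List ℤ} (h : chkC D m (.eps e) = true) : Concl W D := by
  unfold chkC at h
  simp only [Bool.and_eq_true, decide_eq_true_eq, List.all_eq_true, List.any_eq_true, List.mem_range] at h
  obtain ⟨⟨⟨h1, h2⟩, h3⟩, h4⟩ := h
  refine ⟨e, h1, h2, fun x => ?_, fun a ha => ?_⟩
  · rw [← fz_actW D.w hG.okw h1]
    have := fz_dvd (m := 2) (q := 1) (c := actW D.w e) (c' := e) (fun i => by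
      rw [one_mul]
      exact Int.dvd_of_emod_eq_zero (h3 i.val i.2)) x
    rwa [one_mul] at this
  · obtain ⟨r, hr, rfl⟩ := (hS a).1 ha
    have := h4 r hr
    rw [dt_fz (len_sup hG.okD r hr).le] at this
    exact Int.dvd_of_emod_eq_zero this

include hW hc hG hS hu hι hcf hb in
theorem sound {C : Crt} (h : chkC D m C = true) : Concl W D := by
  cases C with
  | eps e => exact sound_eps hG hS h
  | unq k1 k2 iu l => exact (sound_unq hW hc hG.okD hS ι u hu hι hcf h).elim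
  | hw ib l => exact (sound_hw hW hS (len_sup hG.okD) hb h).elim
  | dep N => exact (sound_dep hW hS h).elim
  | skip => exact absurd h Bool.false_ne_true

end C

section C

variable {W : Subgroup GK} {f : Q8 →+ ℤ} (hW : ∀ g ∈ W, Uni f (mx g)) (hc : ∀ g ∈ W, ∀ g' ∈ W, g * g' = g' * g)
  {F : Type} [Field F] (ι : F →+* K8) (u : F → GK) (hu : ∀ x, u x ∈ W)
  (hι : ∀ i j, i < 4 → j < 4 → (∀ y : F, ι y ^ 3 ^ i = ι y ^ 3 ^ j) → i = j)
  (hb : ∀ s : Fin chevE8.nroots, (∀ a ∈ Ind W, 0 ≤ H943.LatFix.ip (cartanOf chevE8 8) (vec chevE8 8 s) a) →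
      (2 : ℤ) • vec chevE8 8 s ∈ CL W)

include hW hc hu hι hb

theorem concl5 {m : ℕ} (hm : m < 128) (hS : ∀ a, a ∈ Ind W ↔ ∃ r ∈ sup D5 m, toV r = a)
    (hcf : ∀ k < 28, m.testBit (k / 4) = true →
      ∃ c : K8, c ≠ 0 ∧ ∀ x, cf (fi (D5.ix.getD k 0)) (mx (u x)) = c * ι x ^ 3 ^ (k % 4)) : Concl W D5 := by
  have h := c5
  rw [List.all_eq_true] at h
  exact sound hW hc (geo_of g5) hS ι u hu hι hcf hb (h m (List.mem_range.2 hm))

theorem concl7 {m : ℕ} (hm : m < 128) (hS : ∀ a, a ∈ Ind W ↔ ∃ r ∈ sup D7 m, toV r = a)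
    (hcf : ∀ k < 28, m.testBit (k / 4) = true →
      ∃ c : K8, c ≠ 0 ∧ ∀ x, cf (fi (D7.ix.getD k 0)) (mx (u x)) = c * ι x ^ 3 ^ (k % 4)) : Concl W D7 := by
  have h := c7
  rw [List.all_eq_true] at h
  have h1 := h m (List.mem_range.2 hm)
  rw [Bool.or_eq_true] at h1
  rcases h1 with h1 | h1
  · exfalso
    have h91 : m = 91 := by simpa using h1
    subst h91
    have r1 := sound_two hW hc (geo_of g7).okD hS ι u hu hι hcf s1
    have r2 := sound_two hW hc (geo_of g7).okD hS ι u hu hι hcf s2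
    have r3 := sound_two hW hc (geo_of g7).okD hS ι u hu hι hcf s3
    have hne : ∀ k < 28, Nat.testBit 91 (k / 4) = true → cf (fi (D7.ix.getD k 0)) (mx (u 1)) ≠ 0 := by
      intro k hk hb
      obtain ⟨c, hc0, hc1⟩ := hcf k hk hb
      rw [hc1, map_one, one_pow, mul_one]
      exact hc0
    have n16 := hne 16 (by norm_num) (by decide)
    have n24 := hne 24 (by norm_num) (by decide)
    have n14 := hne 14 (by norm_num) (by decide)
    have h4 := fun e => s4 ((CharP.intCast_eq_zero_iff K8 3 _).1 e)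
    apply h4
    push_cast
    have h5 : cf (fi (D7.ix.getD 16 0)) (mx (u 1)) * cf (fi (D7.ix.getD 24 0)) (mx (u 1)) *
        cf (fi (D7.ix.getD 14 0)) (mx (u 1)) ≠ 0 := mul_ne_zero (mul_ne_zero n16 n24) n14
    refine (mul_eq_zero.1 ?_).resolve_left h5
    linear_combination (-1 : K8) * ((Ncf (D7.ix.getD 12 0) (D7.ix.getD 18 0) 6 : ℤ) : K8) *
      ((Ncf (D7.ix.getD 12 0) (D7.ix.getD 26 0) 151 : ℤ) : K8) * cf (fi (D7.ix.getD 12 0)) (mx (u 1)) * r3 +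
      ((Ncf (D7.ix.getD 12 0) (D7.ix.getD 26 0) 151 : ℤ) : K8) * ((Ncf (D7.ix.getD 16 0) (D7.ix.getD 18 0) 7 : ℤ) : K8) *
        cf (fi (D7.ix.getD 16 0)) (mx (u 1)) * r1 +
      ((Ncf (D7.ix.getD 12 0) (D7.ix.getD 18 0) 6 : ℤ) : K8) * ((Ncf (D7.ix.getD 24 0) (D7.ix.getD 26 0) 7 : ℤ) : K8) *
        cf (fi (D7.ix.getD 24 0)) (mx (u 1)) * r2
  · exact sound hW hc (geo_of g7) hS ι u hu hι hcf hb h1

end C

end Cfsg.Agent.H288.E8L
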