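import Mathlib
import Cfsg.Agent.H288.E8L.Iface2
import Cfsg.Agent.H288.E8L.Semi
import Cfsg.Agent.H288.E8L.TabMain
import Cfsg.Agent.H857.E8L.Rep
import Cfsg.Agent.H845.E8L.RegNeg
import Cfsg.Agent.H948.E8BT
import Cfsg.Agent.H525.E8L.Iface

/-!
# The Frobenius twist and the exponents of the indecomposable displacements
-/

set_option autoImplicit false
set_option linter.unusedSectionVars false
set_option maxRecDepth 100000

namespace Cfsg.Agent.H288.E8L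

open CoxeterSystem Cfsg Cfsg.Lie Cfsg.Lie.ChevalleyDatum
open Cfsg.Agent.ChevalleyStructure Cfsg.Agent.ChevalleyStructure.Elts Cfsg.Agent.ChevalleyStructure.CoxeterGeom
  Cfsg.Agent.ChevalleyStructure.CoxeterGeomTypes Cfsg.Agent.ChevalleyStructure.RootVec
  Cfsg.Agent.ChevalleyStructure.RootVecTab
open Cfsg.Agent.Tits.Roots Cfsg.Agent.Tits.Core Cfsg.Agent.Nodes Cfsg.Agent.Nodes.Reps Cfsg.Agent.Nodes.BNOf
  Cfsg.Agent.Nodes.RGDChev
open Cfsg.Agent.GpExc.Field Cfsg.Agent.BpExc.TowChev Cfsg.Agent.H129.TorusChar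
open Cfsg.Agent.KFacts.RgdChevCoord
open Cfsg.Agent.H942.E8Tab Cfsg.Agent.H942.E8Alc Cfsg.Agent.H942.CB Cfsg.Agent.H944.Tab Cfsg.Agent.H944.Kac
open Matrix
open Cfsg.Agent.H943

/-! ### Frobenius -/

theorem frb_emb (x : G8) : frb8 (emb8 x) = emb8 x := by
  show emb e8T.inList (frobenius K8 3) (emb e8T.inList (algebraMap (ZMod 3) K8) x) = _
  rw [emb_comp]
  have h : (frobenius K8 3).comp (algebraMap (ZMod 3) K8) = algebraMap (ZMod 3) K8 := Subsingleton.elim _ _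
  rw [h]
  rfl

theorem frb_TT {t : GK} (ht : t ∈ TT chevE8 K8) : frb8 t ∈ TT chevE8 K8 := emb_T e8T (frobenius K8 3) ⟨t, ht, rfl⟩

theorem cX_frb {t : GK} (ht : t ∈ TT chevE8 K8) (x : Q8) : cX e8T (frb8 t) x = cX e8T t x ^ 3 := by
  have h1 : IsMC fun x : Q8 => cX e8T t x ^ 3 :=
    ⟨by
      show cX e8T t 0 ^ 3 = 1
      rw [(isMC_cX e8T ht).zero, one_pow], fun a b => by
      show cX e8T t (a + b) ^ 3 = _
      rw [(isMC_cX e8T ht).add, mul_pow]⟩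
  refine (isMC_cX e8T (frb_TT ht)).ext h1 (fun i => ?_) x
  have hr : Rt (sr i) := isRoot_sr cs8 e8T.isCartan i
  obtain ⟨s, hs⟩ := exists_idx hr
  show cX e8T (frb8 t) (sr i) = cX e8T t (sr i) ^ 3
  rw [cX_root e8T cs8 (frb_TT ht) hr, cX_root e8T cs8 ht hr, ← hs]
  show ch e8T (vec chevE8 8 s) (emb e8T.inList (frobenius K8 3) t) = _
  rw [emb_ch e8T (frobenius K8 3) s.2 ht, frobenius_def]

/-! ### the character of the torus element -/

theorem fz_zero (c : List ℤ) : fz c 0 = 0 := by unfold fz; simp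

theorem cX_eq {Y : List ℕ} {ζ : K8} (hζ : IsPrimitiveRoot ζ 40) {t : GK} (ht : t ∈ TT chevE8 K8)
    (hv : ∀ i, cX e8T t (sr i) = ζ ^ (vecL 40 Y i).val) (a : Q8) : cX e8T t a = ζ ^ fz (YZ Y) a := by
  have hζ0 : ζ ≠ 0 := hζ.ne_zero (by norm_num)
  have h1 : IsMC fun a : Fin 8 → ℤ => ζ ^ fz (YZ Y) a := ⟨by
    show ζ ^ fz (YZ Y) 0 = 1
    rw [fz_zero, zpow_zero], fun a b => by
    show ζ ^ fz (YZ Y) (a + b) = _
    rw [fz_add, zpow_add₀ hζ0]⟩
  refine (isMC_cX e8T ht).ext h1 (fun i => ?_) a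
  rw [hv, fz_sr, YZ_getD, zpow_natCast]
  unfold vecL
  rw [ZMod.val_natCast]
  have := pow_mod_orderOf ζ (Y.getD i 0)
  rwa [← hζ.eq_orderOf] at this

section S

variable {F : Type} [Field F] [Fintype F] (hF : Fintype.card F = 81) (ι : F →+* K8)
  (φ : SpecialLinearGroup (Fin 2) F →* G8) (lam : Fˣ) (hlam : ∀ x, x ∈ Subgroup.zpowers lam)
  {D : Dat} (hG : Geo D) {z t : GK} (hz : z⁻¹ * emb8 (φ (SL2Rel.h lam)) * z = t) (ht : t ∈ TT chevE8 K8)
  (hv : ∀ i, cX e8T t (sr i) = (ι lam ^ 2) ^ (vecL 40 D.Y i).val)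

/-- the conjugated homomorphism -/
noncomputable def cj (φ : SpecialLinearGroup (Fin 2) F →* G8) (z : GK) : SpecialLinearGroup (Fin 2) F →* GK :=
  (MulAut.conj z⁻¹).toMonoidHom.comp (emb8.comp φ)

theorem cj_apply (φ : SpecialLinearGroup (Fin 2) F →* G8) (z : GK) (g : SpecialLinearGroup (Fin 2) F) :
    cj φ z g = z⁻¹ * emb8 (φ g) * z := by
  show z⁻¹ * emb8 (φ g) * z⁻¹⁻¹ = _
  rw [inv_inv]

/-- the unipotent elements as a homomorphism -/
def uh (F : Type) [Field F] : Multiplicative F →* SpecialLinearGroup (Fin 2) F where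
  toFun x := SL2Rel.u x.toAdd
  map_one' := SL2Rel.u_zero
  map_mul' x y := SL2Rel.u_add x.toAdd y.toAdd

/-- the group `W` -/
noncomputable def WW (φ : SpecialLinearGroup (Fin 2) F →* G8) (z : GK) : Subgroup GK := ((cj φ z).comp (uh F)).range

theorem mem_WW {φ : SpecialLinearGroup (Fin 2) F →* G8} {z g : GK} : g ∈ WW φ z ↔ ∃ x : F, cj φ z (SL2Rel.u x) = g :=
  Iff.rfl

theorem cj_mem (φ : SpecialLinearGroup (Fin 2) F →* G8) (z : GK) (x : F) : cj φ z (SL2Rel.u x) ∈ WW φ z := ⟨x, rfl⟩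

theorem WW_comm (φ : SpecialLinearGroup (Fin 2) F →* G8) (z : GK) : ∀ g ∈ WW φ z, ∀ g' ∈ WW φ z, g * g' = g' * g := by
  rintro _ ⟨x, rfl⟩ _ ⟨y, rfl⟩
  rw [← map_mul, ← map_mul, mul_comm]

/-- the element of the torus acts on the unipotent elements -/
theorem conj_u {φ : SpecialLinearGroup (Fin 2) F →* G8} {lam : Fˣ} {z t : GK}
    (hz : z⁻¹ * emb8 (φ (SL2Rel.h lam)) * z = t) (x : F) :
    t * cj φ z (SL2Rel.u x) * t⁻¹ = cj φ z (SL2Rel.u ((lam : F) ^ 2 * x)) := by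
  rw [← hz, ← cj_apply, ← map_inv, ← map_mul, ← map_mul, SL2Rel.h_u, mul_inv_cancel_right]

/-- the Frobenius map on the conjugated group -/
theorem frb_cj (φ : SpecialLinearGroup (Fin 2) F →* G8) (z : GK) (g : SpecialLinearGroup (Fin 2) F) :
    frb8 (cj φ z g) = (z⁻¹ * frb8 z)⁻¹ * cj φ z g * (z⁻¹ * frb8 z) := by
  rw [cj_apply, map_mul, map_mul, map_inv, frb_emb]
  group

include hF hlam in
theorem prim' : IsPrimitiveRoot (ι lam ^ 2) 40 := H525.E8L.prim40 hF ι hlam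

include hF hlam in
theorem primF : IsPrimitiveRoot ((lam : F) ^ 2) 40 := by
  have h1 : IsPrimitiveRoot lam 80 := H525.E8L.orderOf_gen hF hlam ▸ IsPrimitiveRoot.orderOf lam
  exact (IsPrimitiveRoot.coe_units_iff.2 h1).pow (by norm_num) (by norm_num)

include hF hlam hG ht hv in
theorem reg_t : Reg t := by
  refine ⟨ht, fun a ha h => ?_⟩
  have hζ := prim' hF ι lam hlam
  rw [cX_eq hζ ht hv, hζ.zpow_eq_one_iff_dvd] at h
  have h1 := H845.E8L.bound' hG.one hG.alc ha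
  have h2 : fz (YZ D.Y) a = 0 := Int.eq_zero_of_abs_lt_dvd h (abs_lt.2 ⟨by omega, by omega⟩)
  rcases ha.pos_or_neg with h3 | h3
  · obtain ⟨r, hr, rfl⟩ := mem_pos_iff.1 (⟨ha, h3⟩ : a ∈ RGD.Pos cs8 e8T.isCartan)
    have := (H845.E8L.bound hG.one hG.alc hr).1
    omega
  · obtain ⟨r, hr, h4⟩ := mem_pos_iff.1 (⟨ha.neg, neg_nonneg.2 h3⟩ : -a ∈ RGD.Pos cs8 e8T.isCartan)
    have := (H845.E8L.bound hG.one hG.alc hr).1
    rw [← h4, H845.E8L.fz_neg] at this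
    omega

include hF hlam hG hz ht hv in
/-- the positivity functional -/
theorem exists_f : ∃ f : Q8 →+ ℤ, ∀ g ∈ WW φ z, Uni f (mx g) := by
  have h3' : Fact (Nat.Prime 3) := ⟨Nat.prime_three⟩
  let U : Subgroup G8 := (φ.comp (uh F)).range
  have hF3 : IsPGroup 3 (Multiplicative F) := by
    refine IsPGroup.of_card (n := 4) ?_
    show Nat.card F = 3 ^ 4
    rw [Nat.card_eq_fintype_card, hF]
    norm_num
  have hU : IsPGroup 3 U := hF3.of_surjective (φ.comp (uh F)).rangeRestrict (MonoidHom.rangeRestrict_surjective _)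
  have hconj : ∀ x : F, φ (SL2Rel.h lam) * φ (SL2Rel.u x) * (φ (SL2Rel.h lam))⁻¹ = φ (SL2Rel.u ((lam : F) ^ 2 * x)) := by
    intro x
    rw [← map_inv, ← map_mul, ← map_mul, SL2Rel.h_u, mul_inv_cancel_right]
  have memU : ∀ g, g ∈ U ↔ ∃ x : F, φ (SL2Rel.u x) = g := fun g => Iff.rfl
  have hy : φ (SL2Rel.h lam) ∈ Subgroup.normalizer (U : Set G8) := by
    rw [Subgroup.mem_normalizer_iff]
    intro g
    rw [memU, memU]
    constructor
    · rintro ⟨x, rfl⟩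
      exact ⟨(lam : F) ^ 2 * x, (hconj x).symm⟩
    · rintro ⟨x, hx⟩
      refine ⟨((lam : F) ^ 2)⁻¹ * x, ?_⟩
      have h1 := hconj (((lam : F) ^ 2)⁻¹ * x)
      rw [mul_inv_cancel_left₀ (pow_ne_zero _ lam.ne_zero), hx] at h1
      exact mul_left_cancel (mul_right_cancel h1)
  obtain ⟨f, hf⟩ := H948.E8BT.bt U (φ (SL2Rel.h lam)) z t hU hy hz (reg_t hF ι lam hlam hG ht hv)
  refine ⟨f, fun g hg => ?_⟩
  obtain ⟨x, rfl⟩ := mem_WW.1 hg
  rw [cj_apply]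
  exact uni_Sup (hf (φ (SL2Rel.u x)) ((memU _).2 ⟨x, rfl⟩))

include hF hlam hG hz ht hv in
/-- the Frobenius twist -/
theorem rep_n : Rep (word D.w) (z⁻¹ * frb8 z) := by
  have hζ := prim' hF ι lam hlam
  have hζ0 : ι (lam : F) ^ 2 ≠ 0 := hζ.ne_zero (by norm_num)
  set n := z⁻¹ * frb8 z with hn
  have h1 : n * frb8 t = t * n := by
    have h2 : frb8 t = n⁻¹ * t * n := by
      have := frb_cj φ z (SL2Rel.h lam)
      rwa [cj_apply, hz] at this
    rw [h2]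
    group
  obtain ⟨w, hw⟩ := H857.E8L.nt (frb8 t) t n (frb_TT ht) (reg_t hF ι lam hlam hG ht hv) h1
  have h3 : ∀ x, cX e8T t (act8 w x) = cX e8T t x ^ 3 := by
    intro x
    rw [← cX_frb ht, ← cX_rp e8T cs8 locFin8 3 hw (frb_TT ht) x]
    congr 1
    rw [h1]
    group
  have h4 : ∀ x, cX e8T t (act8 (word D.w) x) = cX e8T t x ^ 3 := by
    intro x
    rw [cX_eq hζ ht hv, cX_eq hζ ht hv]
    have h5 : ((40 : ℕ) : ℤ) ∣ fz (YZ D.Y) (act8 (word D.w) x) - 3 * fz (YZ D.Y) x := by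
      rw [← fz_actW D.w hG.okw (by unfold YZ; rw [List.length_map, hG.len])]
      exact fz_dvd (fun i => hG.tw i) x
    obtain ⟨m, hm⟩ := h5
    have h6 : fz (YZ D.Y) (act8 (word D.w) x) = fz (YZ D.Y) x * 3 + (40 : ℕ) * m := by linarith
    rw [h6, zpow_add₀ hζ0, _root_.zpow_mul, _root_.zpow_mul, zpow_natCast _ 40, hζ.pow_eq_one, _root_.one_zpow, mul_one]
    exact zpow_ofNat _ 3
  have h7 : w * (word D.w)⁻¹ = 1 := by
    refine H845.E8L.reg 40 D.Y (ι lam ^ 2) t _ hG.len hG.one hG.alc hζ ht (fun i => ?_) fun x => ?_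
    · rw [cX_eq hζ ht hv, fz_sr, YZ_getD, zpow_natCast]
    · have h8 : act8 (w * (word D.w)⁻¹) x = act8 w (act8 (word D.w)⁻¹ x) := rep_mul_apply _ _ _ _ _
      rw [h8, h3, ← h4, act8_inv]
  rw [mul_inv_eq_one] at h7
  rw [← h7]
  exact hw

include hF hlam hG hz ht hv in
/-- the Weyl element of `SL₂` -/
theorem rep_w : ∃ w0 : W8, Rep w0 (cj φ z SL2Rel.w) ∧ ∀ x, act8 w0 x = -x := by
  have hζ := prim' hF ι lam hlam
  set n := cj φ z SL2Rel.w with hn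
  have htc : cj φ z (SL2Rel.h lam) = t := by rw [cj_apply, hz]
  have h1 : n * t⁻¹ = t * n := by
    rw [← htc, ← map_inv, ← map_mul, ← map_mul, SL2Rel.h_w, SL2Rel.h_inv]
  have ht' : t⁻¹ ∈ TT chevE8 K8 := inv_mem ht
  obtain ⟨w, hw⟩ := H857.E8L.nt t⁻¹ t n ht' (reg_t hF ι lam hlam hG ht hv) h1
  have h3 : ∀ x, cX e8T t (act8 w x) = cX e8T t⁻¹ x := by
    intro x
    rw [← cX_rp e8T cs8 locFin8 3 hw ht' x]
    congr 1
    rw [h1]
    group
  have h4 : ∀ x, cX e8T t⁻¹ (-x) = cX e8T t x := by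
    have m1 : IsMC fun x : Q8 => cX e8T t⁻¹ (-x) := ⟨by
      show cX e8T t⁻¹ (-0) = 1
      rw [neg_zero, (isMC_cX e8T ht').zero], fun a b => by
      show cX e8T t⁻¹ (-(a + b)) = _
      rw [_root_.neg_add, (isMC_cX e8T ht').add]⟩
    refine m1.ext (isMC_cX e8T ht) fun i => ?_
    have hr : Rt (sr i) := isRoot_sr cs8 e8T.isCartan i
    have e1 : cX e8T t⁻¹ (-(sr i)) * cX e8T t⁻¹ (sr i) = 1 := by
      rw [← (isMC_cX e8T ht').add, neg_add_cancel, (isMC_cX e8T ht').zero]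
    have e2 : cX e8T t (sr i) * cX e8T t⁻¹ (sr i) = 1 := by
      have a1 : mx (t * t⁻¹) = mx t * mx t⁻¹ := rfl
      rw [mul_inv_cancel, mx_torus ht, mx_torus ht', Matrix.diagonal_mul_diagonal] at a1
      obtain ⟨s, hs⟩ := exists_idx hr
      have a2 := congrFun (congrFun a1 (Sum.inr s)) (Sum.inr s)
      rw [Matrix.diagonal_apply_eq, wt_inr, hs] at a2
      rw [← a2]
      exact Matrix.one_apply_eq _
    have e3 : cX e8T t⁻¹ (sr i) ≠ 0 := right_ne_zero_of_mul_eq_one e2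
    exact mul_right_cancel₀ e3 (e1.trans e2.symm)
  obtain ⟨wn, hwn⟩ := H845.E8L.neg
  have h5 : w * wn = 1 := by
    refine H845.E8L.reg 40 D.Y (ι lam ^ 2) t _ hG.len hG.one hG.alc hζ ht (fun i => ?_) fun x => ?_
    · rw [cX_eq hζ ht hv, fz_sr, YZ_getD, zpow_natCast]
    · have h8 : act8 (w * wn) x = act8 w (act8 wn x) := rep_mul_apply _ _ _ _ _
      rw [h8, h3, hwn, h4]
  refine ⟨w, hw, fun x => ?_⟩
  have h6 : w = wn⁻¹ := eq_inv_of_mul_eq_one_left h5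
  have h7 : act8 wn (act8 w x) = x := by rw [h6]; exact act8_inv wn x
  rw [hwn] at h7
  exact neg_eq_iff_eq_neg.1 h7

end S

end Cfsg.Agent.H288.E8L
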