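import Mathlib
import Cfsg.Agent.H288.E8L.Frob

/-!
# The regular cases: the assembly
-/

set_option autoImplicit false
set_option linter.unusedSectionVars false
set_option maxRecDepth 100000

namespace Cfsg.Agent.H288.E8L

open CoxeterSystem Cfsg Cfsg.Lie Cfsg.Lie.ChevalleyDatum
open Cfsg.Agent.ChevalleyStructure Cfsg.Agent.ChevalleyStructure.Elts Cfsg.Agent.ChevalleyStructure.CoxeterGeom
  Cfsg.Agent.ChevalleyStructure.CoxeterGeomTypes Cfsg.Agent.ChevalleyStructure.RootVec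
  Cfsg.Agent.ChevalleyStructure.RootVecTab
open Cfsg.Agent.Tits.Roots Cfsg.Agent.Tits.Core Cfsg.Agent.Nodes Cfsg.Agent.Nodes.Reps Cfsg.Agent.Nodes.BNOf
  Cfsg.Agent.Nodes.RGDChev
open Cfsg.Agent.GpExc.Field Cfsg.Agent.BpExc.TowChev Cfsg.Agent.H129.TorusChar
open Cfsg.Agent.KFacts.RgdChevCoord
open Cfsg.Agent.H942.E8Tab Cfsg.Agent.H942.E8Alc Cfsg.Agent.H942.CB Cfsg.Agent.H944.Tab Cfsg.Agent.H944.Kac
open Matrix
open Cfsg.Agent.H943

theorem len_YZ {D : Dat} (hG : Geo D) : (YZ D.Y).length = 8 := by unfold YZ; rw [List.length_map, hG.len]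

theorem dt_vl (c : List ℤ) (s : ℕ) : dt c (vl s) = fz c (vec chevE8 8 s) := by
  rw [dt_fz (by simp [vl]), toV_vl]

theorem three_pow_inj : ∀ i < 4, ∀ j < 4, ((3 : ℤ) ^ i - 3 ^ j) % 40 = 0 → i = j := by decide

theorem mem_four : ∀ i < 4, (3 : ℤ) ^ i % 40 ∈ [(1 : ℤ), 3, 9, 27] := by decide

theorem fz_un (i : Fin 8) (x : Q8) : fz (un i) x = x i := by
  unfold fz
  rw [Finset.sum_eq_single i]
  · have : (un (i : ℕ)).getD (i : ℕ) 0 = 1 := by
      unfold un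
      rw [List.getD_eq_getElem _ _ (by simp)]
      simp
    rw [this, one_mul]
  · intro j _ hj
    have : (un (i : ℕ)).getD (j : ℕ) 0 = 0 := by
      unfold un
      rw [List.getD_eq_getElem _ _ (by simp)]
      simp only [List.getElem_map, List.getElem_range, ite_eq_right_iff, one_ne_zero, imp_false]
      exact fun e => hj (Fin.ext e)
    rw [this, zero_mul]
  · exact fun h => absurd (Finset.mem_univ _) h

/-- the table is an orbit table -/
theorem act_RV {D : Dat} (hG : Geo D) {k : ℕ} (hk : k < 28) (h3 : k % 4 ≠ 3) :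
    act8 (word D.w) (toV (D.RV.getD k [])) = toV (D.RV.getD (k + 1) []) := by
  funext i
  have h1 := hG.phi k hk h3 i
  have hl : (D.RV.getD k []).length = 8 := by rw [okD_RV hG.okD hk]; simp [vl]
  have hu : (un (i : ℕ)).length = 8 := by simp [un]
  rw [dt_fz hl.le, fz_actW D.w hG.okw hu, fz_un] at h1
  exact h1

section S

variable {F : Type} [Field F] [Fintype F] (hF : Fintype.card F = 81) (ι : F →+* K8)
  (φ : SpecialLinearGroup (Fin 2) F →* G8) (lam : Fˣ) (hlam : ∀ x, x ∈ Subgroup.zpowers lam)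
  {D : Dat} (hG : Geo D) {z t : GK} (hz : z⁻¹ * emb8 (φ (SL2Rel.h lam)) * z = t) (ht : t ∈ TT chevE8 K8)
  (hv : ∀ i, cX e8T t (sr i) = (ι lam ^ 2) ^ (vecL 40 D.Y i).val)

include hF hlam hz ht hv in
theorem ind_exp {f : Q8 →+ ℤ} (hf : ∀ g ∈ WW φ z, Uni f (mx g)) {s : Fin chevE8.nroots}
    (hs : vec chevE8 8 s ∈ Ind (WW φ z)) :
    ∃ i < 4, (40 : ℤ) ∣ fz (YZ D.Y) (vec chevE8 8 s) - 3 ^ i ∧ ∃ c : K8, c ≠ 0 ∧
      ∀ x, cf s (mx (cj φ z (SL2Rel.u x))) = c * ι x ^ 3 ^ i := by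
  have hζ := prim' hF ι lam hlam
  have hζ0 : ι (lam : F) ^ 2 ≠ 0 := hζ.ne_zero (by norm_num)
  obtain ⟨h1, i, hi, h2, h3⟩ := semi hF ι (primF hF lam hlam) (fun x => cf s (mx (cj φ z (SL2Rel.u x))))
    (fun x y => by
      show cf s (mx (cj φ z (SL2Rel.u (x + y)))) = _
      rw [SL2Rel.u_add, map_mul]
      exact cf_mul hf hs (cj_mem φ z x) (cj_mem φ z y)) (c := cX e8T t (vec chevE8 8 s))
    (fun x => by
      show cf s (mx (cj φ z (SL2Rel.u ((lam : F) ^ 2 * x)))) = _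
      rw [← conj_u hz x]
      exact cf_conj ht _ s)
    (by
      obtain ⟨g, hg, h⟩ := exists_cf_ne hf hs
      obtain ⟨x, rfl⟩ := mem_WW.1 hg
      exact ⟨x, h⟩)
  refine ⟨i, hi, ?_, _, h1, h2⟩
  rw [cX_eq hζ ht hv, map_pow] at h3
  have h4 : (ι (lam : F) ^ 2) ^ (fz (YZ D.Y) (vec chevE8 8 s) - 3 ^ i) = 1 := by
    rw [zpow_sub₀ hζ0, h3]
    have : ((3 : ℤ) ^ i) = ((3 ^ i : ℕ) : ℤ) := by push_cast; rfl
    rw [this, zpow_natCast, div_self (pow_ne_zero _ hζ0)]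
  exact_mod_cast (hζ.zpow_eq_one_iff_dvd _).1 h4

theorem lvl_eq {D : Dat} (hG : Geo D) {k : ℕ} (hk : k < 28) {i : ℕ} (hi : i < 4)
    (h : (40 : ℤ) ∣ fz (YZ D.Y) (vec chevE8 8 (fi (D.ix.getD k 0))) - 3 ^ i) : i = k % 4 := by
  refine three_pow_inj i hi (k % 4) (Nat.mod_lt _ (by norm_num)) (Int.emod_eq_zero_of_dvd ?_)
  have h1 := Int.dvd_of_emod_eq_zero (hG.kap k hk)
  have hl : (D.RV.getD k []).length = 8 := by rw [okD_RV hG.okD hk]; simp [vl]
  rw [dt_fz hl.le, okD_toV hG.okD hk] at h1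
  have h2 := dvd_sub h1 h
  have e : fz (YZ D.Y) (vec chevE8 8 (fi (D.ix.getD k 0)).val) - 3 ^ (k % 4) -
      (fz (YZ D.Y) (vec chevE8 8 (fi (D.ix.getD k 0)).val) - 3 ^ i) = (3 : ℤ) ^ i - 3 ^ (k % 4) := by ring
  rwa [e] at h2

include hF hlam hG hz ht hv in
/-- the mask of the indecomposable displacements -/
theorem exists_mask {f : Q8 →+ ℤ} (hf : ∀ g ∈ WW φ z, Uni f (mx g)) :
    ∃ m < 128, (∀ a, a ∈ Ind (WW φ z) ↔ ∃ r ∈ sup D m, toV r = a) ∧
      (∀ k < 28, m.testBit (k / 4) = true →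
        ∃ c : K8, c ≠ 0 ∧ ∀ x : F, cf (fi (D.ix.getD k 0)) (mx (cj φ z (SL2Rel.u x))) = c * ι x ^ 3 ^ (k % 4)) := by
  classical
  let m := Nat.ofBits fun j : Fin 7 => decide (toV (D.RV.getD (4 * j.val) []) ∈ Ind (WW φ z))
  have hm : m < 128 := Nat.ofBits_lt_two_pow _
  have hbit : ∀ j < 7, (m.testBit j = true ↔ toV (D.RV.getD (4 * j) []) ∈ Ind (WW φ z)) := by
    intro j hj
    rw [Nat.testBit_ofBits_lt _ _ hj, decide_eq_true_iff]
  -- Frobenius stability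
  have hn := rep_n hF ι φ lam hlam hG hz ht hv
  have hst : ∀ a, a ∈ Ind (WW φ z) ↔ act8 (word D.w) a ∈ Ind (WW φ z) := by
    refine ind_stable H857.E8L.wts hn fun g hg => ?_
    obtain ⟨x, rfl⟩ := mem_WW.1 hg
    exact frb_cj φ z _
  have hk4 : ∀ k < 28, (toV (D.RV.getD k []) ∈ Ind (WW φ z) ↔ m.testBit (k / 4) = true) := by
    intro k hk
    rw [hbit (k / 4) (by omega)]
    have h1 : ∀ i < 4, ∀ j < 7, (toV (D.RV.getD (4 * j + i) []) ∈ Ind (WW φ z) ↔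
        toV (D.RV.getD (4 * j) []) ∈ Ind (WW φ z)) := by
      intro i
      induction i with
      | zero => intro _ j _; rfl
      | succ i ih =>
        intro hi j hj
        rw [← ih (by omega) j hj, hst (toV (D.RV.getD (4 * j + i) [])), act_RV hG (by omega) (by omega)]
        rfl
    have h2 := h1 (k % 4) (Nat.mod_lt _ (by norm_num)) (k / 4) (by omega)
    rwa [Nat.div_add_mod] at h2
  refine ⟨m, hm, fun a => ?_, fun k hk hb => ?_⟩
  · constructor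
    · intro ha
      obtain ⟨s, rfl⟩ := ind_root hf ha
      obtain ⟨i, hi, hd, -⟩ := ind_exp hF ι φ lam hlam hz ht hv hf ha
      have h1 : dt (YZ D.Y) (vl s) % 40 ∈ [(1 : ℤ), 3, 9, 27] := by
        have h2 : dt (YZ D.Y) (vl s) % 40 = 3 ^ i % 40 := by
          rw [dt_vl]
          generalize (3 : ℤ) ^ i = B at hd ⊢
          generalize fz (YZ D.Y) (vec chevE8 8 s) = A at hd ⊢
          omega
        rw [h2]
        exact mem_four i hi
      have h3 := hG.cls s.val s.2 h1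
      obtain ⟨k, hk, hks⟩ := List.getElem_of_mem h3
      have hlen : D.ix.length = 28 := by
        have := hG.okD
        unfold okD at this
        simp only [Bool.and_eq_true, decide_eq_true_eq] at this
        exact this.1.1
      rw [hlen] at hk
      have h4 : D.ix.getD k 0 = s.val := by rw [List.getD_eq_getElem _ _ (by omega)]; exact hks
      have h5 : toV (D.RV.getD k []) = vec chevE8 8 s := by
        rw [okD_toV hG.okD hk, h4, fi_val s.2]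
      refine ⟨_, mem_sup.2 ⟨k, hk, (hk4 k hk).1 ?_, rfl⟩, h5⟩
      rw [h5]
      exact ha
    · rintro ⟨r, hr, rfl⟩
      obtain ⟨k, hk, hb, rfl⟩ := mem_sup.1 hr
      exact (hk4 k hk).2 hb
  · have h1 := (hk4 k hk).2 hb
    rw [okD_toV hG.okD hk] at h1
    obtain ⟨i, hi, hd, c, hc, hx⟩ := ind_exp hF ι φ lam hlam hz ht hv hf h1
    refine ⟨c, hc, fun x => ?_⟩
    rw [hx, lvl_eq hG hk hi hd]

theorem lvl_inj {F : Type} [Field F] [Fintype F] (hF : Fintype.card F = 81) (ι : F →+* K8) (lam : Fˣ)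
    (hlam : ∀ x, x ∈ Subgroup.zpowers lam) (i j : ℕ) (hi : i < 4) (hj : j < 4)
    (h : ∀ y : F, ι y ^ 3 ^ i = ι y ^ 3 ^ j) : i = j := by
  have h1 := h ((lam : F) ^ 2)
  rw [← map_pow, ← map_pow] at h1
  have h2 := ι.injective h1
  have h3 := (primF hF lam hlam).pow_inj (i := 3 ^ i) (j := 3 ^ j) (by interval_cases i <;> norm_num)
    (by interval_cases j <;> norm_num) h2
  exact Nat.pow_right_injective (le_refl 2 |>.trans (by norm_num)) h3

include hF hlam hG hz ht hv in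
/-- the relation of the Weyl element -/
theorem rel_w : cj φ z (SL2Rel.u (1 : F)) * cj φ z SL2Rel.w * cj φ z (SL2Rel.u 1) =
    cj φ z SL2Rel.w * (cj φ z (SL2Rel.u 1))⁻¹ * cj φ z SL2Rel.w := by
  rw [← map_mul, ← map_mul, ← map_inv, ← map_mul, ← map_mul]
  congr 1
  refine Subtype.ext ?_
  rw [← SL2Rel.u_neg]
  show !![1, (1 : F); 0, 1] * !![0, 1; -1, 0] * !![1, (1 : F); 0, 1] = !![0, 1; -1, 0] * !![1, -(1 : F); 0, 1] * !![0, 1; -1, 0]
  rw [Matrix.mul_fin_two, Matrix.mul_fin_two, Matrix.mul_fin_two, Matrix.mul_fin_two]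
  simp

/-- generation -/
theorem gen_all {C : Subgroup (SpecialLinearGroup (Fin 2) F)} (hu : ∀ x, SL2Rel.u x ∈ C) (hw : SL2Rel.w ∈ C)
    (g : SpecialLinearGroup (Fin 2) F) : g ∈ C := by
  refine SL2Rel.induct (P := fun g => g ∈ C) hu (fun a => ?_) hw (fun a b ha hb => C.mul_mem ha hb) g
  have ha0 : (-(a : F)⁻¹) ≠ 0 := neg_ne_zero.2 (inv_ne_zero a.ne_zero)
  have h1 := SL2Rel.w_u_w (-(a : F)⁻¹) ha0
  have h2 : SL2Rel.mi (-(a : F)⁻¹) ha0 = a := by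
    refine Units.ext ?_
    show -(-(a : F)⁻¹)⁻¹ = a
    rw [inv_neg, inv_inv, _root_.neg_neg]
  rw [h2] at h1
  have h3 : SL2Rel.h a = (SL2Rel.u (-(-(a : F)⁻¹)⁻¹))⁻¹ * (SL2Rel.w * SL2Rel.u (-(a : F)⁻¹) * SL2Rel.w) *
      (SL2Rel.u (-(-(a : F)⁻¹)⁻¹))⁻¹ * (SL2Rel.w)⁻¹ := by
    rw [h1]; group
  rw [h3]
  exact C.mul_mem (C.mul_mem (C.mul_mem (C.inv_mem (hu _)) (C.mul_mem (C.mul_mem hw (hu _)) hw)) (C.inv_mem (hu _)))
    (C.inv_mem hw)

include hF hlam hG hz ht hv in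
/-- **from the parity functional to the centraliser** -/
theorem fin_of (hINV : INV) {f : Q8 →+ ℤ} (hf : ∀ g ∈ WW φ z, Uni f (mx g)) (hC : Concl (WW φ z) D) :
    ∃ g : G8, g ≠ 1 ∧ ∀ s ∈ φ.range, g * s = s * g := by
  obtain ⟨e, he8, he1, heφ, heI⟩ := hC
  obtain ⟨w0, hw0, hneg⟩ := rep_w hF ι φ lam hlam hG hz ht hv
  have hn := rep_n hF ι φ lam hlam hG hz ht hv
  have hP : ∀ a ∈ PP (WW φ z), (2 : ℤ) ∣ fz e a := by
    intro a ha
    refine cl_ind hf (P := fun a => (2 : ℤ) ∣ fz e a) ?_ heI (fun x y hx hy => ?_) a (PP_le ha)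
    · rw [fz_zero]; exact dvd_zero _
    · rw [fz_add]; exact dvd_add hx hy
  obtain ⟨g, s, hg1, hgs, hsW, hsn⟩ := hINV (WW φ z) (word D.w) w0 (z⁻¹ * frb8 z) (cj φ z SL2Rel.w) z e hn hw0 hneg rfl
    he8 he1 heφ hP
  refine ⟨g, hg1, ?_⟩
  let C : Subgroup (SpecialLinearGroup (Fin 2) F) := (Subgroup.centralizer {s}).comap (cj φ z)
  have hC : ∀ x, x ∈ C ↔ s * cj φ z x = cj φ z x * s := by
    intro x
    show cj φ z x ∈ Subgroup.centralizer {s} ↔ _
    rw [Subgroup.mem_centralizer_singleton_iff]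
    exact eq_comm
  have hall : ∀ x, x ∈ C := gen_all (fun x => (hC _).2 (hsW _ (cj_mem φ z x))) ((hC _).2 hsn)
  rintro _ ⟨x, rfl⟩
  have h1 := (hC x).1 (hall x)
  refine emb_injective e8T.inList (algebraMap (ZMod 3) K8) ?_
  show emb8 (g * φ x) = emb8 (φ x * g)
  rw [map_mul, map_mul, hgs]
  have h2 : emb8 (φ x) = z * cj φ z x * z⁻¹ := by rw [cj_apply]; group
  rw [h2]
  calc z * s * z⁻¹ * (z * cj φ z x * z⁻¹) = z * (s * cj φ z x) * z⁻¹ := by group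
    _ = z * (cj φ z x * s) * z⁻¹ := by rw [h1]
    _ = z * cj φ z x * z⁻¹ * (z * s * z⁻¹) := by group

end S

/-- **the regular cases** -/
theorem p57_of (hHW : HW) (hINV : INV) : H525.E8L.P57Stmt := by
  intro F _ _ hF ι φ hker lam hlam Y hY hT
  obtain ⟨z, t, hz, ht, hv⟩ := hT
  have hz' : z⁻¹ * emb8 (φ (SL2Rel.h lam)) * z = t := hz
  have hY' : Y = D5.Y ∨ Y = D7.Y := by
    simp only [List.mem_cons, List.not_mem_nil, or_false] at hY
    exact hY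
  rcases hY' with rfl | rfl
  · have hG := geo_of g5
    obtain ⟨f, hf⟩ := exists_f hF ι φ lam hlam hG hz' ht hv
    obtain ⟨w0, hw0, hneg⟩ := rep_w hF ι φ lam hlam hG hz' ht hv
    obtain ⟨m, hm, hS, hcf⟩ := exists_mask hF ι φ lam hlam hG hz' ht hv hf
    have hb := hHW (WW φ z) f w0 _ _ hf hw0 hneg (cj_mem φ z 1) (rel_w hF ι φ lam hlam hG hz' ht hv)
    exact fin_of hF ι φ lam hlam hG hz' ht hv hINV hf
      (concl5 hf (WW_comm φ z) ι (fun x => cj φ z (SL2Rel.u x)) (cj_mem φ z) (lvl_inj hF ι lam hlam) hb hm hS hcf)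
  · have hG := geo_of g7
    obtain ⟨f, hf⟩ := exists_f hF ι φ lam hlam hG hz' ht hv
    obtain ⟨w0, hw0, hneg⟩ := rep_w hF ι φ lam hlam hG hz' ht hv
    obtain ⟨m, hm, hS, hcf⟩ := exists_mask hF ι φ lam hlam hG hz' ht hv hf
    have hb := hHW (WW φ z) f w0 _ _ hf hw0 hneg (cj_mem φ z 1) (rel_w hF ι φ lam hlam hG hz' ht hv)
    exact fin_of hF ι φ lam hlam hG hz' ht hv hINV hf
      (concl7 hf (WW_comm φ z) ι (fun x => cj φ z (SL2Rel.u x)) (cj_mem φ z) (lvl_inj hF ι lam hlam) hb hm hS hcf)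

end Cfsg.Agent.H288.E8L
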