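import Mathlib
import Cfsg.Agent.H288.E8L.Main
import Cfsg.Agent.H288.E8L.Inv
import Cfsg.Agent.H72.E8L.HW

/-!
# `L₂(81)` in `E₈(3)`: the regular cases
-/

set_option autoImplicit false

namespace Cfsg.Agent.H288.E8L

/-- **P57** -/
theorem p57 : H525.E8L.P57Stmt := p57_of H72.E8L.hw inv

end Cfsg.Agent.H288.E8L
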