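import Mathlib
import Cfsg.Agent.H288.E8L.Brk

/-!
# Certificates for the sets of indecomposable displacements
-/

set_option autoImplicit false
set_option linter.unusedSectionVars false
set_option maxRecDepth 100000

namespace Cfsg.Agent.H288.E8L

open CoxeterSystem Cfsg Cfsg.Lie Cfsg.Lie.ChevalleyDatum
open Cfsg.Agent.ChevalleyStructure Cfsg.Agent.ChevalleyStructure.Elts Cfsg.Agent.ChevalleyStructure.CoxeterGeom
  Cfsg.Agent.ChevalleyStructure.CoxeterGeomTypes Cfsg.Agent.ChevalleyStructure.RootVec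
  Cfsg.Agent.ChevalleyStructure.RootVecTab
open Cfsg.Agent.Tits.Roots Cfsg.Agent.Tits.Core Cfsg.Agent.Nodes Cfsg.Agent.Nodes.Reps Cfsg.Agent.Nodes.BNOf
  Cfsg.Agent.Nodes.RGDChev
open Cfsg.Agent.GpExc.Field Cfsg.Agent.BpExc.TowChev Cfsg.Agent.H129.TorusChar
open Cfsg.Agent.KFacts.RgdChevCoord
open Cfsg.Agent.H942.E8Tab Cfsg.Agent.H942.E8Alc Cfsg.Agent.H942.CB Cfsg.Agent.H944.Tab Cfsg.Agent.H944.Kac
open Matrix

/-- the list of a root -/
def vl (s : ℕ) : List ℤ := (List.range 8).map fun i => rt chevE8 s i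

theorem toV_vl (s : ℕ) : toV (vl s) = vec chevE8 8 s := by
  funext i
  rw [vec_apply]
  unfold toV vl
  rw [List.getD_eq_getElem _ _ (by simp)]
  simp

/-- the data of a case -/
structure Dat where
  /-- the exponents -/
  Y : List ℕ
  /-- the word of the Frobenius twist -/
  w : List ℕ
  /-- the roots with exponent `3 ^ (k % 4)` -/
  ix : List ℕ
  /-- their lists -/
  RV : List (List ℤ)

/-- the roots of a mask -/
def sup (D : Dat) (m : ℕ) : List (List ℤ) :=
  ((List.range 28).filter fun k => m.testBit (k / 4)).map fun k => D.RV.getD k []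

theorem mem_sup {D : Dat} {m : ℕ} {r : List ℤ} : r ∈ sup D m ↔ ∃ k < 28, m.testBit (k / 4) = true ∧ D.RV.getD k [] = r := by
  unfold sup
  simp only [List.mem_map, List.mem_filter, List.mem_range, and_assoc]

/-- scalar product of integer lists -/
def dt (c r : List ℤ) : ℤ := dotI c r

theorem dt_eq (l : ℕ) : ∀ (c r : List ℤ), r.length ≤ l → dotI c r = ∑ i : Fin l, c.getD i 0 * r.getD i 0 := by
  induction l with
  | zero =>
    intro c r hr
    have : r = [] := List.length_eq_zero_iff.1 (by omega)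
    subst this
    rw [dotI]
    · simp
    · simp
  | succ n ih =>
    intro c r hr
    rw [Fin.sum_univ_succ]
    cases r with
    | nil => rw [dotI] <;> simp
    | cons a as =>
      cases c with
      | nil => rw [dotI] <;> simp
      | cons b bs =>
        rw [dotI, ih bs as (by simpa using hr)]
        simp

theorem dt_fz {c r : List ℤ} (hr : r.length ≤ 8) : dt c r = fz c (toV r) := dt_eq 8 c r hr

/-- the certificates -/
inductive Crt where
  | eps (e : List ℤ)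
  | unq (k1 k2 iu : ℕ) (l : List ℤ)
  | hw (ib : ℕ) (l : List ℤ)
  | dep (N : List ℕ)
  | skip

/-- the `i`-th coordinate of a combination -/
def cmb : List ℕ → List (List ℤ) → ℕ → ℤ
  | n :: ns, r :: rs, i => (n : ℤ) * r.getD i 0 + cmb ns rs i
  | _, _, _ => 0

/-- a positive coefficient -/
def anyP : List ℕ → List (List ℤ) → Bool
  | n :: ns, _ :: rs => decide (0 < n) || anyP ns rs
  | _, _ => false

/-- equality of a sum -/
def eqS (a b c : List ℤ) : Bool := (List.range 8).all fun i => decide (a.getD i 0 + b.getD i 0 = c.getD i 0)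

theorem eqS_iff {a b c : List ℤ} : eqS a b c = true ↔ toV a + toV b = toV c := by
  unfold eqS
  rw [List.all_eq_true]
  constructor
  · intro h
    funext i
    exact of_decide_eq_true (h i.val (List.mem_range.2 i.2))
  · intro h i hi
    exact decide_eq_true (congrFun h ⟨i, List.mem_range.1 hi⟩)

/-- the checks on the pairs -/
def chkP (S : List (List ℤ)) (c l : List ℤ) (ps : List (List ℤ)) : Bool :=
  (S.all fun r => decide (dt l c < 3 * dt l r)) &&
  (S.all fun r => S.all fun s => !(eqS r s c) || ps.contains r)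

/-- the checks -/
def chkC (D : Dat) (m : ℕ) : Crt → Bool
  | .eps e => decide (e.length = 8) && ((List.range 8).any fun i => decide (e.getD i 0 % 2 ≠ 0)) &&
      ((List.range 8).all fun i => decide (((actW D.w e).getD i 0 - e.getD i 0) % 2 = 0)) &&
      ((sup D m).all fun r => decide (dt e r % 2 = 0))
  | .unq k1 k2 iu l => decide (k1 < 28) && decide (k2 < 28) && m.testBit (k1 / 4) && m.testBit (k2 / 4) &&
      decide (k1 % 4 ≠ k2 % 4) && decide (iu < 240) && decide (D.ix.getD k2 0 ≠ D.ix.getD k1 0) &&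
      decide (D.ix.getD k2 0 ≠ chevE8.negIdx.getD (D.ix.getD k1 0) 0) &&
      eqS (D.RV.getD k1 []) (D.RV.getD k2 []) (vl iu) &&
      decide (Ncf (D.ix.getD k1 0) (D.ix.getD k2 0) iu % 3 ≠ 0) &&
      chkP (sup D m) (vl iu) l [D.RV.getD k1 [], D.RV.getD k2 []]
  | .hw ib l => decide (ib < 240) && ((sup D m).all fun r => decide (0 ≤ H943.LatFix.ip (cartanOf chevE8 8) (toV (vl ib)) (toV r))) &&
      ((sup D m).all fun r => decide (0 ≤ dt l r)) && decide (dt l (vl ib) < 0)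
  | .dep N => ((List.range 8).all fun i => decide (cmb N (sup D m) i = 0)) && anyP N (sup D m)
  | .skip => false

/-! ### soundness -/

section U

variable {W : Subgroup GK} {f : Q8 →+ ℤ} (hW : ∀ g ∈ W, Uni f (mx g))

include hW

theorem cl_ind {P : Q8 → Prop} (h0 : P 0) (h1 : ∀ a ∈ Ind W, P a) (h2 : ∀ x y, P x → P y → P (x + y)) :
    ∀ x ∈ CL W, P x := by
  have key : ∀ x ∈ AddSubmonoid.closure (Ind W), P x := by
    intro x h
    induction h using AddSubmonoid.closure_induction with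
    | mem x hx => exact h1 x hx
    | zero => exact h0
    | add x y _ _ hx hy => exact h2 x y hx hy
  exact fun x hx => key x (cl_le hW hx)

variable {S : List (List ℤ)} (hS : ∀ a, a ∈ Ind W ↔ ∃ r ∈ S, toV r = a) (h8 : ∀ r ∈ S, r.length = 8)

include hS h8

/-- the decompositions of a vector -/
theorem sound_P {c l : List ℤ} {ps : List (List ℤ)} (hc8 : c.length = 8) (h : chkP S c l ps = true) (hc0 : ps ≠ [])
    (hps : ∀ p ∈ ps, ∃ q ∈ ps, p ∈ S ∧ q ∈ S ∧ toV p + toV q = toV c) :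
    ∀ x ∈ CL W, ∀ y ∈ CL W, x ≠ 0 → y ≠ 0 → x + y = toV c → ∃ p ∈ ps, x = toV p := by
  unfold chkP at h
  rw [Bool.and_eq_true, List.all_eq_true, List.all_eq_true] at h
  obtain ⟨h1, h2⟩ := h
  have h1' : ∀ r ∈ S, fz l (toV c) < 3 * fz l (toV r) := by
    intro r hr
    have := of_decide_eq_true (h1 r hr)
    rwa [dt_fz (h8 r hr).le, dt_fz hc8.le] at this
  have hpos : 0 < fz l (toV c) := by
    obtain ⟨p, hp⟩ := List.exists_mem_of_ne_nil _ hc0
    obtain ⟨q, -, hp', hq', e⟩ := hps p hp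
    have a1 := h1' p hp'
    have a2 := h1' q hq'
    have a3 : fz l (toV c) = fz l (toV p) + fz l (toV q) := by rw [← e, fz_add]
    omega
  have key : ∀ x ∈ CL W, x = 0 ∨ (x ∈ Ind W ∧ fz l (toV c) < 3 * fz l x) ∨ 2 * fz l (toV c) < 3 * fz l x := by
    refine cl_ind hW (Or.inl rfl) (fun a ha => Or.inr (Or.inl ⟨ha, ?_⟩)) ?_
    · obtain ⟨r, hr, rfl⟩ := (hS a).1 ha
      exact h1' r hr
    · intro x y hx hy
      rcases hx with rfl | hx
      · rw [zero_add]; exact hy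
      · rcases hy with rfl | hy
        · rw [add_zero]; exact Or.inr hx
        · right; right
          rw [fz_add]
          have b1 : fz l (toV c) < 3 * fz l x := by rcases hx with hx | hx; exacts [hx.2, by omega]
          have b2 : fz l (toV c) < 3 * fz l y := by rcases hy with hy | hy; exacts [hy.2, by omega]
          omega
  intro x hx y hy hx0 hy0 e
  have k1 := (key x hx).resolve_left hx0
  have k2 := (key y hy).resolve_left hy0
  have k3 : fz l (toV c) = fz l x + fz l y := by rw [← e, fz_add]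
  have k4 : x ∈ Ind W ∧ y ∈ Ind W := by
    rcases k1 with k1 | k1
    · rcases k2 with k2 | k2
      · exact ⟨k1.1, k2.1⟩
      · omega
    · rcases k2 with k2 | k2 <;> omega
  obtain ⟨r, hr, rfl⟩ := (hS x).1 k4.1
  obtain ⟨s, hs, rfl⟩ := (hS y).1 k4.2
  have h3 := h2 r hr
  rw [List.all_eq_true] at h3
  have h4 := h3 s hs
  rw [eqS_iff.2 e, Bool.not_true, Bool.false_or, List.contains_iff_mem] at h4
  exact ⟨r, h4, rfl⟩

omit h8 in
theorem sound_dep_aux : ∀ (N : List ℕ) (T : List (List ℤ)) (_ : ∀ r ∈ T, r ∈ S),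
    ∃ v : Q8, (∀ i : Fin 8, v i = cmb N T i) ∧ 0 ≤ f v ∧ (anyP N T = true → 0 < f v) := by
  intro N
  induction N with
  | nil =>
    intro T _
    refine ⟨0, fun i => ?_, by rw [map_zero], fun h => ?_⟩
    · rw [cmb]
      · rfl
      · simp
    · rw [anyP] at h
      · exact absurd h (by decide)
      · simp
  | cons n ns ih =>
    intro T hT
    cases T with
    | nil =>
      refine ⟨0, fun i => ?_, by rw [map_zero], fun h => ?_⟩
      · rw [cmb]
        · rfl
        · simp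
      · rw [anyP] at h
        · exact absurd h (by decide)
        · simp
    | cons r rs =>
      obtain ⟨v, hv, hv0, hvp⟩ := ih rs fun s hs => hT s (List.mem_cons_of_mem _ hs)
      have hr : 0 < f (toV r) := f_pos hW ((hS _).2 ⟨r, hT r List.mem_cons_self, rfl⟩).1
      refine ⟨(n : ℤ) • toV r + v, fun i => ?_, ?_, fun h => ?_⟩
      · rw [Pi.add_apply, Pi.smul_apply, hv i, smul_eq_mul]
        rfl
      · rw [map_add, map_zsmul, smul_eq_mul]
        have := mul_nonneg (Int.natCast_nonneg n) hr.le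
        omega
      · rw [map_add, map_zsmul, smul_eq_mul]
        rw [anyP, Bool.or_eq_true, decide_eq_true_eq] at h
        rcases h with h | h
        · have : 0 < (n : ℤ) * f (toV r) := mul_pos (by exact_mod_cast h) hr
          omega
        · have h3 := hvp h
          have := mul_nonneg (Int.natCast_nonneg n) hr.le
          omega

omit h8 in
theorem sound_dep {N : List ℕ} (h : (((List.range 8).all fun i => decide (cmb N S i = 0)) && anyP N S) = true) :
    False := by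
  rw [Bool.and_eq_true, List.all_eq_true] at h
  obtain ⟨v, hv, -, hp⟩ := sound_dep_aux hW hS N S fun r hr => hr
  have h1 := hp h.2
  have h2 : v = 0 := by
    funext i
    rw [hv i]
    exact of_decide_eq_true (h.1 i.val (List.mem_range.2 i.2))
  rw [h2, map_zero] at h1
  exact lt_irrefl _ h1

theorem sound_hw (hb : ∀ s : Fin chevE8.nroots, (∀ a ∈ Ind W, 0 ≤ H943.LatFix.ip (cartanOf chevE8 8) (vec chevE8 8 s) a) →
      (2 : ℤ) • vec chevE8 8 s ∈ CL W) {ib : ℕ} {l : List ℤ}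
    (h : (decide (ib < 240) && (S.all fun r => decide (0 ≤ H943.LatFix.ip (cartanOf chevE8 8) (toV (vl ib)) (toV r))) &&
      (S.all fun r => decide (0 ≤ dt l r)) && decide (dt l (vl ib) < 0)) = true) : False := by
  simp only [Bool.and_eq_true, decide_eq_true_eq, List.all_eq_true] at h
  obtain ⟨⟨⟨h1, h2⟩, h3⟩, h4⟩ := h
  have h5 := hb ⟨ib, h1⟩ (fun a ha => by
    obtain ⟨r, hr, rfl⟩ := (hS a).1 ha
    have := h2 r hr
    rwa [toV_vl] at this)
  have h6 : ∀ x ∈ CL W, 0 ≤ fz l x := by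
    refine cl_ind hW (by unfold fz; simp) (fun a ha => ?_) fun x y hx hy => by rw [fz_add]; omega
    obtain ⟨r, hr, rfl⟩ := (hS a).1 ha
    have := h3 r hr
    rwa [dt_fz (h8 r hr).le] at this
  have h7 := h6 _ h5
  rw [fz_smul] at h7
  rw [dt_fz (by unfold vl; simp), toV_vl] at h4
  have h8' : fz l (vec chevE8 8 ib) = fz l (vec chevE8 8 (⟨ib, h1⟩ : Fin chevE8.nroots).val) := rfl
  omega

end U

/-! ### the coefficients -/

/-- an index -/
def fi (n : ℕ) : Fin chevE8.nroots := ⟨n % 240, Nat.mod_lt _ (by norm_num)⟩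

theorem fi_val {n : ℕ} (h : n < 240) : (fi n).val = n := Nat.mod_eq_of_lt h

/-- the data are consistent -/
def okD (D : Dat) : Bool := decide (D.ix.length = 28) && (D.ix.all fun s => decide (s < 240)) && decide (D.ix.map vl = D.RV)

theorem okD_lt {D : Dat} (h : okD D = true) {k : ℕ} (hk : k < 28) : D.ix.getD k 0 < 240 := by
  unfold okD at h
  simp only [Bool.and_eq_true, decide_eq_true_eq, List.all_eq_true] at h
  obtain ⟨⟨h1, h2⟩, h3⟩ := h
  rw [List.getD_eq_getElem _ _ (by omega)]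
  exact h2 _ (List.getElem_mem _)

theorem okD_RV {D : Dat} (h : okD D = true) {k : ℕ} (hk : k < 28) : D.RV.getD k [] = vl (D.ix.getD k 0) := by
  unfold okD at h
  simp only [Bool.and_eq_true, decide_eq_true_eq, List.all_eq_true] at h
  obtain ⟨⟨h1, h2⟩, h3⟩ := h
  rw [← h3, List.getD_eq_getElem _ _ (by rw [List.length_map]; omega), List.getD_eq_getElem _ _ (by omega),
    List.getElem_map]

theorem okD_toV {D : Dat} (h : okD D = true) {k : ℕ} (hk : k < 28) :
    toV (D.RV.getD k []) = vec chevE8 8 (fi (D.ix.getD k 0)) := by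
  rw [okD_RV h hk, toV_vl, fi_val (okD_lt h hk)]

theorem len_sup {D : Dat} (h : okD D = true) {m : ℕ} : ∀ r ∈ sup D m, r.length = 8 := by
  intro r hr
  obtain ⟨k, hk, -, rfl⟩ := mem_sup.1 hr
  rw [okD_RV h hk]
  simp [vl]

section C

variable {W : Subgroup GK} {f : Q8 →+ ℤ} (hW : ∀ g ∈ W, Uni f (mx g)) (hc : ∀ g ∈ W, ∀ g' ∈ W, g * g' = g' * g)
  {D : Dat} (hD : okD D = true) {m : ℕ} (hS : ∀ a, a ∈ Ind W ↔ ∃ r ∈ sup D m, toV r = a)
  {F : Type} [Field F] (ι : F →+* K8) (u : F → GK) (hu : ∀ x, u x ∈ W)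
  (hι : ∀ i j, i < 4 → j < 4 → (∀ y : F, ι y ^ 3 ^ i = ι y ^ 3 ^ j) → i = j)
  (hcf : ∀ k < 28, m.testBit (k / 4) = true →
    ∃ c : K8, c ≠ 0 ∧ ∀ x, cf (fi (D.ix.getD k 0)) (mx (u x)) = c * ι x ^ 3 ^ (k % 4))

include hW hc hD hS hu hι hcf

theorem sound_unq {k1 k2 iu : ℕ} {l : List ℤ} (h : chkC D m (.unq k1 k2 iu l) = true) : False := by
  unfold chkC at h
  simp only [Bool.and_eq_true, decide_eq_true_eq] at h
  obtain ⟨⟨⟨⟨⟨⟨⟨⟨⟨⟨hk1, hk2⟩, hb1⟩, hb2⟩, hlv⟩, hiu⟩, hne⟩, hng⟩, hsum⟩, hN⟩, hP⟩ := h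
  have e1 := okD_toV hD hk1
  have e2 := okD_toV hD hk2
  have f1 := fi_val (okD_lt hD hk1)
  have f2 := fi_val (okD_lt hD hk2)
  have f3 := fi_val hiu
  have m1 : D.RV.getD k1 [] ∈ sup D m := mem_sup.2 ⟨k1, hk1, hb1, rfl⟩
  have m2 : D.RV.getD k2 [] ∈ sup D m := mem_sup.2 ⟨k2, hk2, hb2, rfl⟩
  have hsum' := eqS_iff.1 hsum
  have hd := sound_P hW hS (len_sup hD) (c := vl iu) (by simp [vl]) hP (by simp) (by
    intro p hp
    rw [List.mem_cons, List.mem_singleton] at hp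
    rcases hp with rfl | rfl
    · exact ⟨_, by simp, m1, m2, hsum'⟩
    · exact ⟨_, List.mem_cons_self, m2, m1, by rw [add_comm, hsum']⟩)
  obtain ⟨c1, hc1, g1⟩ := hcf k1 hk1 hb1
  obtain ⟨c2, hc2, g2⟩ := hcf k2 hk2 hb2
  have hsum2 : vec chevE8 8 (fi iu) = vec chevE8 8 (fi (D.ix.getD k1 0)) + vec chevE8 8 (fi (D.ix.getD k2 0)) := by
    rw [← e1, ← e2, hsum', toV_vl, f3]
  have key : ∀ x y : F, cf (fi (D.ix.getD k1 0)) (mx (u x)) * cf (fi (D.ix.getD k2 0)) (mx (u y)) =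
      cf (fi (D.ix.getD k1 0)) (mx (u y)) * cf (fi (D.ix.getD k2 0)) (mx (u x)) := by
    intro x y
    refine rel_one hW hc (u := fi iu) ((hS _).2 ⟨_, m1, e1⟩) ((hS _).2 ⟨_, m2, e2⟩) ?_ ?_ hsum2 ?_ ?_ (hu x) (hu y)
    · intro e
      apply hne
      rw [← f1, ← f2, e]
    · rw [f1, f2]; exact hng
    · rw [f1, f2, f3]
      intro h3
      exact hN (Int.emod_eq_zero_of_dvd h3)
    · intro x hx y hy hx0 hy0 e
      obtain ⟨p, hp, rfl⟩ := hd x hx y hy hx0 hy0 (by rw [e, toV_vl, f3])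
      rw [List.mem_cons, List.mem_singleton] at hp
      rcases hp with rfl | rfl
      · left; exact e1
      · right; exact e2
  apply hlv
  refine hι _ _ (Nat.mod_lt _ (by norm_num)) (Nat.mod_lt _ (by norm_num)) fun y => ?_
  have h1 := key 1 y
  rw [g1, g2, g1, g2, map_one, one_pow, one_pow, mul_one, mul_one] at h1
  have h2 : c1 * c2 * ι y ^ 3 ^ (k2 % 4) = c1 * c2 * ι y ^ 3 ^ (k1 % 4) := by linear_combination h1
  exact (mul_left_cancel₀ (mul_ne_zero hc1 hc2) h2).symm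

/-- the check for a relation with two pairs -/
def chkT (D : Dat) (m k1 k2 k1' k2' iu : ℕ) (l : List ℤ) : Bool :=
  decide (k1 < 28) && decide (k2 < 28) && decide (k1' < 28) && decide (k2' < 28) && m.testBit (k1 / 4) &&
  m.testBit (k2 / 4) && m.testBit (k1' / 4) && m.testBit (k2' / 4) && decide (k1 % 4 = 0) && decide (k1' % 4 = 0) &&
  decide (k2 % 4 = 2) && decide (k2' % 4 = 2) && decide (iu < 240) &&
  decide ([D.ix.getD k1 0, D.ix.getD k2 0, D.ix.getD k1' 0, D.ix.getD k2' 0].Nodup) &&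
  decide (D.ix.getD k2 0 ≠ chevE8.negIdx.getD (D.ix.getD k1 0) 0) &&
  decide (D.ix.getD k2' 0 ≠ chevE8.negIdx.getD (D.ix.getD k1' 0) 0) &&
  eqS (D.RV.getD k1 []) (D.RV.getD k2 []) (vl iu) && eqS (D.RV.getD k1' []) (D.RV.getD k2' []) (vl iu) &&
  chkP (sup D m) (vl iu) l [D.RV.getD k1 [], D.RV.getD k2 [], D.RV.getD k1' [], D.RV.getD k2' []]

theorem sound_two {k1 k2 k1' k2' iu : ℕ} {l : List ℤ} (h : chkT D m k1 k2 k1' k2' iu l = true) :
    ((Ncf (D.ix.getD k1 0) (D.ix.getD k2 0) iu : ℤ) : K8) *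
      (cf (fi (D.ix.getD k1 0)) (mx (u 1)) * cf (fi (D.ix.getD k2 0)) (mx (u 1))) +
    ((Ncf (D.ix.getD k1' 0) (D.ix.getD k2' 0) iu : ℤ) : K8) *
      (cf (fi (D.ix.getD k1' 0)) (mx (u 1)) * cf (fi (D.ix.getD k2' 0)) (mx (u 1))) = 0 := by
  unfold chkT at h
  simp only [Bool.and_eq_true, decide_eq_true_eq] at h
  obtain ⟨⟨⟨⟨⟨⟨⟨⟨⟨⟨⟨⟨⟨⟨⟨⟨⟨⟨hk1, hk2⟩, hk1'⟩, hk2'⟩, hb1⟩, hb2⟩, hb1'⟩, hb2'⟩, hl1⟩, hl1'⟩, hl2⟩, hl2'⟩, hiu⟩, hnd⟩,
    hng⟩, hng'⟩, hs⟩, hs'⟩, hP⟩ := h
  have e1 := okD_toV hD hk1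
  have e2 := okD_toV hD hk2
  have e1' := okD_toV hD hk1'
  have e2' := okD_toV hD hk2'
  have f1 := fi_val (okD_lt hD hk1)
  have f2 := fi_val (okD_lt hD hk2)
  have f1' := fi_val (okD_lt hD hk1')
  have f2' := fi_val (okD_lt hD hk2')
  have f3 := fi_val hiu
  have m1 : D.RV.getD k1 [] ∈ sup D m := mem_sup.2 ⟨k1, hk1, hb1, rfl⟩
  have m2 : D.RV.getD k2 [] ∈ sup D m := mem_sup.2 ⟨k2, hk2, hb2, rfl⟩
  have m1' : D.RV.getD k1' [] ∈ sup D m := mem_sup.2 ⟨k1', hk1', hb1', rfl⟩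
  have m2' : D.RV.getD k2' [] ∈ sup D m := mem_sup.2 ⟨k2', hk2', hb2', rfl⟩
  have hsum := eqS_iff.1 hs
  have hsum' := eqS_iff.1 hs'
  have hd := sound_P hW hS (len_sup hD) (c := vl iu) (by simp [vl]) hP (by simp) (by
    intro p hp
    simp only [List.mem_cons, List.not_mem_nil, or_false] at hp
    rcases hp with rfl | rfl | rfl | rfl
    · exact ⟨_, by simp, m1, m2, hsum⟩
    · exact ⟨_, by simp, m2, m1, by rw [add_comm, hsum]⟩
    · exact ⟨_, by simp, m1', m2', hsum'⟩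
    · exact ⟨_, by simp, m2', m1', by rw [add_comm, hsum']⟩)
  obtain ⟨c1, hc1, g1⟩ := hcf k1 hk1 hb1
  obtain ⟨c2, hc2, g2⟩ := hcf k2 hk2 hb2
  obtain ⟨c1', hc1', g1'⟩ := hcf k1' hk1' hb1'
  obtain ⟨c2', hc2', g2'⟩ := hcf k2' hk2' hb2'
  have hv : vec chevE8 8 (fi iu) = vec chevE8 8 (fi (D.ix.getD k1 0)) + vec chevE8 8 (fi (D.ix.getD k2 0)) := by
    rw [← e1, ← e2, hsum, toV_vl, f3]
  have hv' : vec chevE8 8 (fi iu) = vec chevE8 8 (fi (D.ix.getD k1' 0)) + vec chevE8 8 (fi (D.ix.getD k2' 0)) := by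
    rw [← e1', ← e2', hsum', toV_vl, f3]
  have hnd' : [fi (D.ix.getD k1 0), fi (D.ix.getD k2 0), fi (D.ix.getD k1' 0), fi (D.ix.getD k2' 0)].Nodup := by
    refine List.Nodup.of_map Fin.val ?_
    simp only [List.map_cons, List.map_nil, f1, f2, f1', f2']
    exact hnd
  obtain ⟨y, hy⟩ : ∃ y : F, ι y ^ 3 ^ 0 ≠ ι y ^ 3 ^ 2 := by
    by_contra hcon
    push Not at hcon
    exact absurd (hι 0 2 (by norm_num) (by norm_num) hcon) (by norm_num)
  have key := rel_two hW hc (u := fi iu) ((hS _).2 ⟨_, m1, e1⟩) ((hS _).2 ⟨_, m2, e2⟩) ((hS _).2 ⟨_, m1', e1'⟩)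
    ((hS _).2 ⟨_, m2', e2'⟩) hnd' (by rw [f1, f2]; exact hng) (by rw [f1', f2']; exact hng') hv hv'
    (fun x hx y hy hx0 hy0 e => by
      obtain ⟨p, hp, rfl⟩ := hd x hx y hy hx0 hy0 (by rw [e, toV_vl, f3])
      simp only [List.mem_cons, List.not_mem_nil, or_false] at hp
      rcases hp with rfl | rfl | rfl | rfl
      · left; exact e1
      · right; left; exact e2
      · right; right; left; exact e1'
      · right; right; right; exact e2') (hu 1) (hu y)
  rw [g1, g1, g2, g2, g1', g1', g2', g2', f1, f2, f1', f2', f3, hl1, hl2, hl1', hl2'] at key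
  rw [g1, g2, g1', g2', hl1, hl2, hl1', hl2']
  simp only [map_one, one_pow, mul_one] at key ⊢
  have h1 : (ι y ^ 3 ^ 2 - ι y ^ 3 ^ 0) * (((Ncf (D.ix.getD k1 0) (D.ix.getD k2 0) iu : ℤ) : K8) * (c1 * c2) +
      ((Ncf (D.ix.getD k1' 0) (D.ix.getD k2' 0) iu : ℤ) : K8) * (c1' * c2')) = 0 := by
    linear_combination key
  exact (mul_eq_zero.1 h1).resolve_left (sub_ne_zero.2 fun e => hy e.symm)

end C

end Cfsg.Agent.H288.E8L
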